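import Mathlib
import Cfsg.Agent.Lib.Helper44.GroupQuot

set_option autoImplicit false

namespace Cfsg.Agent.Lib.Helper13.OOut

open Cfsg.Agent.Lib.Helper44

/-- a normal subgroup of order two is central -/
theorem commute_of_card_ker_two {O E : Type*} [Group O] [Group E] (θ : O →* E)
    (hk : Nat.card θ.ker = 2) (z : O) (hz : z ∈ θ.ker) (x : O) : Commute z x := by
  by_cases hz1 : z = 1
  · subst hz1; exact Commute.one_left x
  obtain ⟨y, -, hy⟩ := (Nat.card_eq_two_iff' (1 : θ.ker)).1 hk
  have h1 : (⟨z, hz⟩ : θ.ker) = y := hy _ (fun h => hz1 (congrArg Subtype.val h))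
  have hc : x * z * x⁻¹ ∈ θ.ker := (MonoidHom.normal_ker θ).conj_mem z hz x
  have h2 : (⟨x * z * x⁻¹, hc⟩ : θ.ker) = y := hy _ (fun h => hz1 (by
    have h3 : x * z * x⁻¹ = 1 := congrArg Subtype.val h
    have h4 : z = x⁻¹ * (x * z * x⁻¹) * x := by group
    rw [h4, h3]; group))
  have h3 : x * z * x⁻¹ = z := congrArg Subtype.val (h2.trans h1.symm)
  have h4 : x * z = z * x := by
    calc x * z = x * z * x⁻¹ * x := by group
      _ = z * x := by rw [h3]
  exact h4.symm

/-- split extension with kernel of order two -/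
theorem nonempty_equiv_prod_of_section {O E : Type*} [Group O] [Group E] (θ : O →* E) (s : E →* O)
    (hs : ∀ e, θ (s e) = e) (hk : Nat.card θ.ker = 2) :
    Nonempty (O ≃* Multiplicative (ZMod 2) × E) := by
  obtain ⟨e2⟩ := nonempty_mulEquiv_two hk
  let f : θ.ker × E →* O := MonoidHom.noncommCoprod θ.ker.subtype s
    (fun z x => commute_of_card_ker_two θ hk z z.2 (s x))
  have hf : ∀ z : θ.ker, ∀ x : E, f (z, x) = (z : O) * s x := fun z x => rfl
  have hbij : Function.Bijective f := by
    constructor
    · rw [injective_iff_map_eq_one]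
      rintro ⟨z, x⟩ h
      rw [hf] at h
      have h1 := congrArg θ h
      rw [map_mul, hs, map_one, MonoidHom.mem_ker.1 z.2, one_mul] at h1
      subst h1
      rw [map_one, mul_one] at h
      exact Prod.ext (Subtype.ext h) rfl
    · intro y
      refine ⟨(⟨y * (s (θ y))⁻¹, ?_⟩, θ y), ?_⟩
      · rw [MonoidHom.mem_ker, map_mul, map_inv, hs, mul_inv_cancel]
      · rw [hf]; simp
  exact ⟨(MulEquiv.ofBijective f hbij).symm.trans (MulEquiv.prodCongr e2 (MulEquiv.refl E))⟩

/-- order of the kernel of the map induced on a quotient -/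
theorem card_ker_lift {A E : Type*} [Group A] [Finite A] [Group E] (I : Subgroup A) [I.Normal]
    (θ : A →* E) (hI : I ≤ θ.ker) (k : ℕ) (hk : Nat.card θ.ker = k * Nat.card I) :
    Nat.card (QuotientGroup.lift I θ hI).ker = k := by
  have h1 := Subgroup.card_mul_index θ.ker
  have h2 := Subgroup.card_mul_index (QuotientGroup.lift I θ hI).ker
  have h3 := Subgroup.card_eq_card_quotient_mul_card_subgroup I
  rw [Subgroup.index_ker] at h1 h2
  have h4 : (QuotientGroup.lift I θ hI).range = θ.range := by
    ext y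
    constructor
    · rintro ⟨x, rfl⟩
      induction x using QuotientGroup.induction_on with
      | H a => exact ⟨a, rfl⟩
    · rintro ⟨a, rfl⟩
      exact ⟨QuotientGroup.mk a, rfl⟩
  rw [h4] at h2
  have : Finite θ.range := Finite.of_surjective θ.rangeRestrict θ.rangeRestrict_surjective
  have hr : 0 < Nat.card θ.range := Nat.card_pos
  have hi : 0 < Nat.card I := Nat.card_pos
  rw [hk, h3, ← h2] at h1
  have h5 : k * (Nat.card I * Nat.card θ.range)
      = Nat.card (QuotientGroup.lift I θ hI).ker * (Nat.card I * Nat.card θ.range) := by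
    calc k * (Nat.card I * Nat.card θ.range) = k * Nat.card I * Nat.card θ.range := by ring
      _ = _ := h1
      _ = _ := by ring
  exact (Nat.eq_of_mul_eq_mul_right (Nat.mul_pos hi hr) h5).symm

theorem lift_surjective {A E : Type*} [Group A] [Group E] (I : Subgroup A) [I.Normal]
    (θ : A →* E) (hI : I ≤ θ.ker) (hθ : Function.Surjective θ) :
    Function.Surjective (QuotientGroup.lift I θ hI) := by
  intro y
  obtain ⟨a, rfl⟩ := hθ y
  exact ⟨QuotientGroup.mk a, rfl⟩

end Cfsg.Agent.Lib.Helper13.OOut
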