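import Cfsg.Agent.Lib.Helper13.OOutC
import Cfsg.Agent.Lib.Helper13.OOutG
import Cfsg.Agent.Lib.Helper5.POmegaOrder
import Cfsg.Agent.Lib.Helper43.PA.FieldAut

set_option autoImplicit false

namespace Cfsg.Agent.Lib.Helper13.OOut

open Matrix QuadraticMap Module Cfsg.Agent.Lib.Helper44

universe u

variable {F : Type u} [Field F] {ι : Type} [Fintype ι] [DecidableEq ι]

/-- for a form defined over the prime field the field automorphisms are semisimilarities -/
def inrG (Q : (ι → F) → F) (hσ : ∀ (σ : F ≃+* F) (v : ι → F), Q (fun i => σ (v i)) = σ (Q v)) :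
    (F ≃+* F) →* ↥(Gam Q) :=
  (SemidirectProduct.inr : (F ≃+* F) →* SG F ι).codRestrict (Gam Q) (by
    intro σ
    exact ⟨1, fun v => by simpa using hσ σ v⟩)

theorem lam_inrG (Q : (ι → F) → F)
    (hσ : ∀ (σ : F ≃+* F) (v : ι → F), Q (fun i => σ (v i)) = σ (Q v)) (σ : F ≃+* F) :
    lam Q (inrG Q hσ σ) = σ := rfl

theorem card_range_sq [Fintype F] (h2 : (2 : F) ≠ 0) :
    Nat.card ↥(powMonoidHom 2 : Fˣ →* Fˣ).range * 2 = Fintype.card F - 1 := by
  classical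
  have hk : Nat.card ↥(powMonoidHom 2 : Fˣ →* Fˣ).ker = 2 := by
    rw [Nat.card_eq_two_iff]
    refine ⟨1, ⟨-1, by rw [MonoidHom.mem_ker]; simp⟩, ?_, ?_⟩
    · intro h
      exact neg_one_units_ne_one h2 (congrArg Subtype.val h).symm
    · rw [Set.eq_univ_iff_forall]
      rintro ⟨x, hx⟩
      rw [MonoidHom.mem_ker, powMonoidHom_apply] at hx
      have h3 : (x : F) * (x : F) = 1 := by
        have := congrArg Units.val hx
        simpa [pow_two] using this
      rcases mul_self_eq_one_iff.1 h3 with h | h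
      · left; apply Subtype.ext; apply Units.ext; exact h
      · right; apply Subtype.ext; apply Units.ext; simpa using h
  have h4 := Subgroup.card_mul_index (powMonoidHom 2 : Fˣ →* Fˣ).ker
  rw [hk, Subgroup.index_ker, Nat.card_eq_fintype_card (α := Fˣ), Fintype.card_units] at h4
  rw [← h4, mul_comm]

theorem inn_le_pgoAut (Q : (ι → F) → F) : Cfsg.Inn (Cfsg.POmega F Q) ≤ Cfsg.pgoAut F Q := by
  rw [inn_eq_map, pgoAut_eq_map]
  apply Subgroup.map_mono
  rintro _ ⟨s, rfl⟩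
  rfl

/-- split case: `Out = Z₂ × Gal` -/
theorem out_of_section [Fintype F] (Q : QuadraticForm F (ι → F))
    (hQ : (polarBilin Q).Nondegenerate) (hn : 5 ≤ Fintype.card ι)
    (htop : Cfsg.gammaPOmega F ⇑Q = ⊤)
    (hσ : ∀ (σ : F ≃+* F) (v : ι → F), Q (fun i => σ (v i)) = σ (Q v))
    (hcard : Nat.card ↥(Cfsg.pgoAut F ⇑Q) = 2 * Nat.card (Cfsg.POmega F ⇑Q)) :
    Nonempty (Cfsg.Out (Cfsg.POmega F ⇑Q) ≃* Multiplicative (ZMod 2) × (F ≃+* F)) := by
  obtain ⟨θ, h1, h2, h3⟩ := exists_theta Q hQ hn htop (fun σ => ⟨inrG _ hσ σ, rfl⟩)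
  have hI : Cfsg.Inn (Cfsg.POmega F ⇑Q) ≤ θ.ker := by rw [h2]; exact inn_le_pgoAut _
  apply nonempty_equiv_prod_of_section (QuotientGroup.lift _ θ hI)
    ((QuotientGroup.mk' (Cfsg.Inn (Cfsg.POmega F ⇑Q))).comp ((Th ⇑Q).comp (inrG _ hσ)))
  · intro σ
    exact h3 _
  · apply card_ker_lift
    rw [h2, hcard, card_Inn Q hQ hn]

section odd

variable [Fintype F] (m : ℕ)

omit [Fintype F] in
theorem quadFormOdd_sigma (σ : F ≃+* F) (v : Unit ⊕ (Fin m ⊕ Fin m) → F) :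
    Cfsg.quadFormOdd m F (fun i => σ (v i)) = σ (Cfsg.quadFormOdd m F v) := by
  simp [Cfsg.quadFormOdd, map_sum]

omit [Fintype F] in
theorem range_multHom_odd (h2 : (2 : F) ≠ 0) (hex : ∃ v, oddQF m F v ≠ 0) :
    (multHom (oddQF m F) hex).range = (powMonoidHom 2 : Fˣ →* Fˣ).range := by
  ext c
  constructor
  · rintro ⟨g, rfl⟩
    rw [multHom_apply]
    have h1 := det_sq_simil (oddQF_nondeg m F h2) g
    have hc : Fintype.card (Unit ⊕ (Fin m ⊕ Fin m)) = 2 * m + 1 := by simp; ring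
    rw [hc] at h1
    set c := multF (oddQF m F) g with hcdef
    set d : Fˣ := Matrix.GeneralLinearGroup.det (g : GL (Unit ⊕ (Fin m ⊕ Fin m)) F) with hd
    have h3 : d ^ 2 = c ^ (2 * m + 1) := by
      apply Units.ext
      simpa [hd] using h1
    refine ⟨d * (c ^ m)⁻¹, ?_⟩
    rw [powMonoidHom_apply, mul_pow, h3, inv_pow, ← pow_mul, mul_comm m 2, pow_succ]
    simp
  · rintro ⟨μ, rfl⟩
    refine ⟨scalSimil (oddQF m F) μ, ?_⟩
    rw [multHom_apply, powMonoidHom_apply]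
    apply Units.ext
    rw [multF_of_scalar hex _ μ (scalSimil_coe _ μ)]
    simp [pow_two]

theorem card_pgoAut_odd (h2 : (2 : F) ≠ 0) (hm : 3 ≤ m) :
    Nat.card ↥(Cfsg.pgoAut F (Cfsg.quadFormOdd m F))
      = 2 * Nat.card (Cfsg.POmega F (Cfsg.quadFormOdd m F)) := by
  have hQ := oddQF_nondeg m F h2
  have hn : 5 ≤ Fintype.card (Unit ⊕ (Fin m ⊕ Fin m)) := by simp; omega
  have hex := exists_ne_zero (oddQF m F) hQ hn
  have h1 := card_pgoAut_mul (oddQF m F) hQ hn hex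
  rw [range_multHom_odd m h2 hex, ← card_range_sq h2] at h1
  have hmul := Cfsg.Agent.Lib.Helper5.card_POmega_mul (F := F) ⇑(oddQF m F)
  have hidx := index_Omega_odd h2 (oddQF m F) hQ (by omega)
  have hZ := card_center_Omega_eq_one (oddQF m F) hQ hn (Or.inr (by
        rintro ⟨g, hg, hg1⟩
        have hdet := Cfsg.Agent.Lib.Helper5.det_eq_one_of_mem_Omega _ g hg
        rw [hg1, Matrix.det_neg, Matrix.det_one, mul_one] at hdet
        have hc : Fintype.card (Unit ⊕ (Fin m ⊕ Fin m)) = 2 * m + 1 := by simp; ring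
        rw [hc, pow_succ, pow_mul] at hdet
        simp at hdet
        apply h2
        linear_combination -hdet))
  rw [hidx, hZ, mul_one] at hmul
  rw [← hmul] at h1
  have hR : 0 < Nat.card ↥(powMonoidHom 2 : Fˣ →* Fˣ).range := Nat.card_pos
  rw [oddQF_coe] at h1
  have h5 : (Nat.card ↥(Cfsg.pgoAut F (Cfsg.quadFormOdd m F)) * 2)
        * Nat.card ↥(powMonoidHom 2 : Fˣ →* Fˣ).range
      = (Nat.card (Cfsg.POmega F (Cfsg.quadFormOdd m F)) * 4)
        * Nat.card ↥(powMonoidHom 2 : Fˣ →* Fˣ).range := by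
    rw [← h1]; ring
  have h6 := Nat.eq_of_mul_eq_mul_right hR h5
  omega

theorem lam_surjective_odd : Function.Surjective (lam (Cfsg.quadFormOdd m F)) := fun σ =>
  ⟨inrG _ (quadFormOdd_sigma m) σ, rfl⟩

/-- `|Aut(PΩ_{2m+1}(q))|` from the generation statement -/
theorem card_aut_odd {p f : ℕ} [Fact p.Prime] (hF : Fintype.card F = p ^ f) (h2 : (2 : F) ≠ 0)
    (hm : 3 ≤ m) (htop : Cfsg.gammaPOmega F (Cfsg.quadFormOdd m F) = ⊤) :
    Nat.card (MulAut (Cfsg.POmega F (Cfsg.quadFormOdd m F)))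
      = 2 * f * Nat.card (Cfsg.POmega F (Cfsg.quadFormOdd m F)) := by
  have hQ := oddQF_nondeg m F h2
  have hn : 5 ≤ Fintype.card (Unit ⊕ (Fin m ⊕ Fin m)) := by simp; omega
  have h1 := card_aut (oddQF m F) hQ hn (by rw [oddQF_coe]; exact htop)
    (by rw [oddQF_coe]; exact lam_surjective_odd m)
  rw [oddQF_coe, card_pgoAut_odd m h2 hm, Cfsg.Agent.Lib.Helper43.PA.card_ringAut hF] at h1
  rw [h1]; ring

theorem out_odd {p f : ℕ} [Fact p.Prime] (hF : Fintype.card F = p ^ f) (h2 : (2 : F) ≠ 0)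
    (hm : 3 ≤ m) (htop : Cfsg.gammaPOmega F (Cfsg.quadFormOdd m F) = ⊤) :
    Nonempty (Cfsg.Out (Cfsg.POmega F (Cfsg.quadFormOdd m F)) ≃*
      Multiplicative (ZMod 2 × ZMod f)) := by
  have hQ := oddQF_nondeg m F h2
  have hn : 5 ≤ Fintype.card (Unit ⊕ (Fin m ⊕ Fin m)) := by simp; omega
  have h1 := out_of_section (oddQF m F) hQ hn (by rw [oddQF_coe]; exact htop)
    (by rw [oddQF_coe]; exact quadFormOdd_sigma m)
    (by rw [oddQF_coe]; exact card_pgoAut_odd m h2 hm)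
  rw [oddQF_coe] at h1
  obtain ⟨e⟩ := h1
  obtain ⟨e2⟩ := Cfsg.Agent.Lib.Helper43.PA.exists_ringAut_equiv hF
  exact ⟨e.trans ((MulEquiv.prodCongr (MulEquiv.refl _) e2).trans
    (MulEquiv.prodMultiplicative (ZMod 2) (ZMod f)).symm)⟩

end odd

end Cfsg.Agent.Lib.Helper13.OOut
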