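import Mathlib
import Cfsg.Agent.Lib.Helper13.SymmForm
import Cfsg.Agent.Lib.Helper44.Adjust
import Cfsg.Agent.Lib.Helper44.SOIndex
import Cfsg.Agent.Lib.Helper94.Symp

set_option autoImplicit false
set_option linter.unusedSimpArgs false

namespace Cfsg.Agent.Lib.Helper13.O

open QuadraticMap Module
open Cfsg.Agent.Lib.Helper44

variable {F V : Type*} [Field F] [AddCommGroup V] [Module F V]

lemma rep [Finite F] (a b c : F) (ha : a ≠ 0) (hb : b ≠ 0) :
    ∃ x y : F, a * x ^ 2 + b * y ^ 2 = c := by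
  by_cases h2 : (2 : F) = 0
  · have hch : ringChar F = 2 :=
      CharP.ringChar_of_prime_eq_zero Nat.prime_two (by exact_mod_cast h2)
    obtain ⟨r, hr⟩ := FiniteField.isSquare_of_char_two hch (c / a)
    refine ⟨r, 0, ?_⟩
    rw [_root_.sq, ← hr]
    field_simp
    ring
  · exact Cfsg.Agent.Lib.Helper13.exists_sq_add_sq h2 a b c ha hb

/-- the vectors orthogonal to a finite set -/
def orth (Q : QuadraticForm F V) (s : Finset V) : Submodule F V :=
  LinearMap.BilinForm.orthogonal (polarBilin Q) (Submodule.span F (s : Set V))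

lemma mem_orth {Q : QuadraticForm F V} {s : Finset V} {z : V} :
    z ∈ orth Q s ↔ ∀ x ∈ s, polar Q x z = 0 := by
  unfold orth
  rw [LinearMap.BilinForm.mem_orthogonal_iff]
  constructor
  · intro h x hx
    exact h x (Submodule.subset_span hx)
  · intro h u hu
    change polarBilin Q u z = 0
    induction hu using Submodule.span_induction with
    | mem x hx => exact h x hx
    | zero => simp
    | add x y _ _ hx hy => rw [map_add, LinearMap.add_apply, hx, hy, add_zero]
    | smul c x _ hx => rw [map_smul, LinearMap.smul_apply, hx, smul_zero]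

lemma finrank_orth [FiniteDimensional F V] {Q : QuadraticForm F V}
    (hQ : (polarBilin Q).Nondegenerate) (s : Finset V) :
    finrank F V ≤ finrank F (orth Q s) + s.card := by
  unfold orth
  rw [LinearMap.BilinForm.finrank_orthogonal hQ]
  have : finrank F (Submodule.span F (s : Set V)) ≤ s.card := finrank_span_finset_le_card (R := F) s
  omega

lemma exists_ns [FiniteDimensional F V] {Q : QuadraticForm F V}
    (hQ : (polarBilin Q).Nondegenerate) (s : Finset V) (hs : 2 * s.card < finrank F V) :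
    ∃ z ∈ orth Q s, Q z ≠ 0 := by
  apply exists_nonsingular_of_finrank hQ
  have := finrank_orth hQ s
  omega

lemma exists_pair_ne [FiniteDimensional F V] {Q : QuadraticForm F V}
    (hQ : (polarBilin Q).Nondegenerate) (s : Finset V) (hs : 2 * s.card < finrank F V) :
    ∃ a ∈ orth Q s, ∃ b ∈ orth Q s, polar Q a b ≠ 0 := by
  by_contra hcon
  push Not at hcon
  have hle : orth Q s ≤ LinearMap.BilinForm.orthogonal (polarBilin Q) (orth Q s) := by
    intro b hb
    rw [LinearMap.BilinForm.mem_orthogonal_iff]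
    intro a ha
    exact hcon a ha b hb
  have h1 := Submodule.finrank_mono hle
  rw [LinearMap.BilinForm.finrank_orthogonal hQ] at h1
  have h2 := finrank_orth hQ s
  omega

lemma exists_hyp [Finite F] [FiniteDimensional F V] {Q : QuadraticForm F V}
    (hQ : (polarBilin Q).Nondegenerate) (s : Finset V) (hs : 2 * (s.card + 3) < finrank F V) :
    ∃ e f, e ∈ orth Q s ∧ f ∈ orth Q s ∧ Q e = 0 ∧ Q f = 0 ∧ polar Q e f = 1 := by
  classical
  obtain ⟨a, ha, b, hb, hab⟩ := exists_pair_ne hQ s (by omega)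
  obtain ⟨e, he, hQe, heb⟩ : ∃ e ∈ orth Q s, Q e = 0 ∧ polar Q e b ≠ 0 := by
    by_cases hQa : Q a = 0
    · exact ⟨a, ha, hQa, hab⟩
    · have hc1 : (insert a (insert b s)).card ≤ s.card + 2 := by
        have h1 := Finset.card_insert_le a (insert b s)
        have h2 := Finset.card_insert_le b s
        omega
      obtain ⟨a', ha', hQa'⟩ := exists_ns hQ (insert a (insert b s)) (by omega)
      have hc2 : (insert a' (insert a (insert b s))).card ≤ s.card + 3 := by
        have h1 := Finset.card_insert_le a' (insert a (insert b s))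
        omega
      obtain ⟨a'', ha'', hQa''⟩ := exists_ns hQ (insert a' (insert a (insert b s))) (by omega)
      rw [mem_orth] at ha' ha''
      obtain ⟨x, y, hxy⟩ := rep (Q a') (Q a'') (-Q a) hQa' hQa''
      have h1 : polar Q a a' = 0 := ha' a (by simp)
      have h2 : polar Q b a' = 0 := ha' b (by simp)
      have h3 : polar Q a a'' = 0 := ha'' a (by simp)
      have h4 : polar Q b a'' = 0 := ha'' b (by simp)
      have h5 : polar Q a' a'' = 0 := ha'' a' (by simp)
      refine ⟨a + x • a' + y • a'', ?_, ?_, ?_⟩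
      · refine Submodule.add_mem _ (Submodule.add_mem _ ha (Submodule.smul_mem _ _ ?_))
          (Submodule.smul_mem _ _ ?_)
        · rw [mem_orth]; intro z hz; exact ha' z (by simp [hz])
        · rw [mem_orth]; intro z hz; exact ha'' z (by simp [hz])
      · rw [Q_add_smul, Q_add_smul, polar_add_left, polar_smul_left, h1, h3, h5]
        simp only [smul_eq_mul]
        linear_combination hxy
      · rw [polar_add_left, polar_add_left, polar_smul_left, polar_smul_left, polar_comm Q a' b,
          polar_comm Q a'' b, h2, h4]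
        simpa using hab
  set c := polar Q e b with hc
  have hee : polar Q e e = 0 := by rw [polar_self, hQe]; simp
  refine ⟨e, c⁻¹ • b + (-Q (c⁻¹ • b)) • e, he,
    Submodule.add_mem _ (Submodule.smul_mem _ _ hb) (Submodule.smul_mem _ _ he), hQe, ?_, ?_⟩
  · rw [Q_add_smul, hQe, polar_smul_left, polar_comm Q b e, ← hc, smul_eq_mul, inv_mul_cancel₀ heb]
    ring
  · rw [polar_add_right, polar_smul_right, polar_smul_right, hee, ← hc, smul_eq_mul,
      inv_mul_cancel₀ heb]
    simp

lemma exists_value [Finite F] [FiniteDimensional F V] {Q : QuadraticForm F V}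
    (hQ : (polarBilin Q).Nondegenerate) (s : Finset V) (hs : 2 * (s.card + 3) < finrank F V) (a : F) :
    ∃ z ∈ orth Q s, Q z = a ∧ z ≠ 0 := by
  obtain ⟨e, f, he, hf, hQe, hQf, hef⟩ := exists_hyp hQ s hs
  refine ⟨e + a • f, Submodule.add_mem _ he (Submodule.smul_mem _ _ hf), ?_, ?_⟩
  · rw [Q_add_smul, hQe, hQf, hef]; ring
  · intro h0
    have h1 : polar Q (e + a • f) f = 1 := by
      rw [polar_add_left, polar_smul_left, hef, polar_self, hQf]; simp
    rw [h0] at h1
    simp at h1

/-- `Ω`, the commutator subgroup of the orthogonal group, as a group of linear automorphisms -/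
def Om (Q : QuadraticForm F V) : Subgroup (V ≃ₗ[F] V) := (commutator ↥(OQ Q)).map (OQ Q).subtype

lemma Om_le_OQ (Q : QuadraticForm F V) : Om Q ≤ OQ Q := by
  rintro _ ⟨g, -, rfl⟩
  exact g.2

lemma prod_refl_mem_Om [Fintype F] [FiniteDimensional F V] {Q : QuadraticForm F V}
    (hQ : (polarBilin Q).Nondegenerate) (h : finrank F V ≠ 4) (l : List V)
    (hl : ∀ v ∈ l, Q v ≠ 0) (he : Even l.length) (hs : IsSquare (l.map Q).prod) :
    (l.map (refl Q)).prod ∈ Om Q :=
  ⟨(l.map (reflO Q)).prod, (prod_reflO_mem_commutator_iff_all hQ (Or.inr h) l hl).2 ⟨he, hs⟩,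
    prod_reflO_coe Q l⟩

lemma eichler_mul (Q : QuadraticForm F V) (u v v' : V) (hu : Q u = 0) (huv : polar Q u v = 0)
    (huv' : polar Q u v' = 0) :
    eichler Q u v hu huv * eichler Q u v' hu huv' =
      eichler Q u (v + v') hu (by rw [polar_add_right, huv, huv', add_zero]) := by
  ext x
  have := eichlerLin_comp Q hu huv huv' x
  simpa [eichler, LinearEquiv.mul_apply] using this

lemma eichler_mem_Om [Fintype F] [FiniteDimensional F V] {Q : QuadraticForm F V}
    (hQ : (polarBilin Q).Nondegenerate) (hdim : 4 < finrank F V) (u v : V) (hu : Q u = 0)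
    (huv : polar Q u v = 0) : eichler Q u v hu huv ∈ Om Q := by
  classical
  have key : ∀ v (huv : polar Q u v = 0), Q v ≠ 0 → eichler Q u v hu huv ∈ Om Q := by
    intro v huv hv
    have hvu : polar Q v u = 0 := by rw [polar_comm]; exact huv
    have hw : Q (v - Q v • u) = Q v := by
      rw [sub_eq_add_neg, ← neg_smul, Q_add_smul, hu, hvu]; ring
    have e : eichler Q u v hu huv = (([v, v - Q v • u] : List V).map (refl Q)).prod := by
      ext x
      have := refl_mul_refl_eq_eichler Q hu huv hv x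
      simp only [List.map_cons, List.map_nil, List.prod_cons, List.prod_nil, mul_one]
      rw [this]
      simp [eichler]
    rw [e]
    refine prod_refl_mem_Om hQ (by omega) _ ?_ (by simp) ?_
    · intro z hz
      simp only [List.mem_cons, List.not_mem_nil, or_false] at hz
      rcases hz with rfl | rfl
      · exact hv
      · rw [hw]; exact hv
    · simp only [List.map_cons, List.map_nil, List.prod_cons, List.prod_nil, mul_one, hw]
      exact ⟨Q v, rfl⟩
  by_cases hv : Q v = 0
  · have hc : ({u, v} : Finset V).card ≤ 2 := Finset.card_le_two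
    obtain ⟨w, hw, hQw⟩ := exists_ns hQ {u, v} (by omega)
    rw [mem_orth] at hw
    have h1 : polar Q u w = 0 := hw u (by simp)
    have h2 : polar Q v w = 0 := hw v (by simp)
    have h3 : polar Q u (v - w) = 0 := by rw [polar_sub_right, huv, h1, sub_zero]
    have h4 : Q (v - w) ≠ 0 := by
      have := Q_add_smul Q v w (-1)
      simp only [neg_smul, one_smul, ← sub_eq_add_neg] at this
      rw [this, hv, h2]
      simpa using hQw
    have e : eichler Q u v hu huv = eichler Q u (v - w) hu h3 * eichler Q u w hu h1 := by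
      rw [eichler_mul]
      congr 1
      abel
    rw [e]
    exact mul_mem (key _ h3 h4) (key _ h1 hQw)
  · exact key v huv hv

lemma OQ_inv_apply {g : V ≃ₗ[F] V} (x : V) : g (g⁻¹ x) = x := by
  rw [← LinearEquiv.mul_apply, mul_inv_cancel]; rfl

lemma OQ_polar_inv {Q : QuadraticForm F V} {g : V ≃ₗ[F] V} (hg : g ∈ OQ Q) (v x : V) :
    polar Q v (g⁻¹ x) = polar Q (g v) x := by
  rw [← OQ_polar hg, OQ_inv_apply]

lemma conj_eichler {Q : QuadraticForm F V} {g : V ≃ₗ[F] V} (hg : g ∈ OQ Q) (u v : V) (hu : Q u = 0)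
    (huv : polar Q u v = 0) :
    g * eichler Q u v hu huv * g⁻¹ = eichler Q (g u) (g v) (by rw [mem_OQ.1 hg]; exact hu)
      (by rw [OQ_polar hg]; exact huv) := by
  ext x
  simp only [LinearEquiv.mul_apply, eichler_apply, map_add, map_sub, map_smul, OQ_inv_apply,
    OQ_polar_inv hg, mem_OQ.1 hg]

/-- the group generated by the Eichler transformations -/
def ES (Q : QuadraticForm F V) : Subgroup (V ≃ₗ[F] V) :=
  Subgroup.closure {g | ∃ (u v : V) (hu : Q u = 0) (huv : polar Q u v = 0), g = eichler Q u v hu huv}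

lemma eichler_mem_ES (Q : QuadraticForm F V) (u v : V) (hu : Q u = 0) (huv : polar Q u v = 0) :
    eichler Q u v hu huv ∈ ES Q := Subgroup.subset_closure ⟨u, v, hu, huv, rfl⟩

lemma ES_le_OQ (Q : QuadraticForm F V) : ES Q ≤ OQ Q := by
  unfold ES
  rw [Subgroup.closure_le]
  rintro _ ⟨u, v, hu, huv, rfl⟩
  exact eichler_mem Q u v hu huv

lemma ES_conj {Q : QuadraticForm F V} {g : V ≃ₗ[F] V} (hg : g ∈ OQ Q) {t : V ≃ₗ[F] V}
    (ht : t ∈ ES Q) : g * t * g⁻¹ ∈ ES Q := by
  induction ht using Subgroup.closure_induction with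
  | mem x hx =>
    obtain ⟨u, v, hu, huv, rfl⟩ := hx
    rw [conj_eichler hg]
    exact eichler_mem_ES _ _ _ _ _
  | one => simp [Subgroup.one_mem]
  | mul x y _ _ hx hy =>
    have : g * (x * y) * g⁻¹ = (g * x * g⁻¹) * (g * y * g⁻¹) := by group
    rw [this]; exact mul_mem hx hy
  | inv x _ hx =>
    have : g * x⁻¹ * g⁻¹ = (g * x * g⁻¹)⁻¹ := by group
    rw [this]; exact inv_mem hx

lemma exists_ES_move1 [FiniteDimensional F V] {Q : QuadraticForm F V}
    (hQ : (polarBilin Q).Nondegenerate) {x y : V} (h : Q x = Q y) (hx : Q x ≠ 0)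
    (hs : Q (y - x) = 0) : ∃ t ∈ ES Q, t x = y := by
  have hxs : polar Q x (y - x) = 0 := by
    have e : Q y = Q (x + (y - x)) := by congr 1; abel
    rw [QuadraticMap.map_add (⇑Q), hs, ← h] at e
    simpa using e.symm
  have hnot : x ∉ Submodule.span F {y - x} := by
    intro hmem
    obtain ⟨c, hc⟩ := Submodule.mem_span_singleton.1 hmem
    apply hx
    rw [← hc, QuadraticMap.map_smul, hs]; simp
  obtain ⟨w, hw1, hw2⟩ := exists_perp_polar_eq_one hQ hnot
  refine ⟨eichler Q (y - x) w hs hw1, eichler_mem_ES Q _ _ hs hw1, ?_⟩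
  rw [eichler_apply, hw2, polar_comm Q (y - x) x, hxs]
  simp

lemma exists_ES_move_indep [Finite F] [FiniteDimensional F V] {Q : QuadraticForm F V}
    (hQ : (polarBilin Q).Nondegenerate) (hdim : 12 < finrank F V) {x y : V} (h : Q x = Q y)
    (hx : Q x ≠ 0) (hy : y ∉ Submodule.span F {x}) : ∃ t ∈ ES Q, t x = y := by
  classical
  obtain ⟨w, hw1, hw2⟩ := exists_perp_polar_eq_one hQ hy
  have hc : ({x, y, w} : Finset V).card ≤ 3 := Finset.card_le_three
  obtain ⟨w', hw', hQw', -⟩ := exists_value hQ {x, y, w} (by omega) (-Q w)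
  rw [mem_orth] at hw'
  have h1 : polar Q x w' = 0 := hw' x (by simp)
  have h2 : polar Q y w' = 0 := hw' y (by simp)
  have h3 : polar Q w w' = 0 := hw' w (by simp)
  set M := Q (y - x) with hM
  set t₀ : V := M • (w + w') with ht₀
  have hQt : Q t₀ = 0 := by
    rw [ht₀, QuadraticMap.map_smul, QuadraticMap.map_add (⇑Q), hQw', h3]; simp
  have hxt : polar Q x t₀ = 0 := by
    rw [ht₀, polar_smul_right, polar_add_right, hw1, h1]; simp
  have hyt : polar Q y t₀ = M := by
    rw [ht₀, polar_smul_right, polar_add_right, polar_comm Q y w, hw2, h2]; simp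
  have hz : Q (x + t₀) = Q x := by
    rw [QuadraticMap.map_add (⇑Q), hQt, hxt]; simp
  obtain ⟨t1, ht1, ht1x⟩ := exists_ES_move1 hQ hz.symm hx (by
    have : x + t₀ - x = t₀ := by abel
    rw [this]; exact hQt)
  obtain ⟨t2, ht2, ht2x⟩ := exists_ES_move1 hQ (hz.trans h) (by rw [hz]; exact hx) (by
    have e : y - (x + t₀) = (y - x) + (-1 : F) • t₀ := by rw [neg_smul, one_smul]; abel
    rw [e, Q_add_smul, hQt, polar_sub_left, hyt, hxt, ← hM]; ring)
  exact ⟨t2 * t1, mul_mem ht2 ht1, by rw [LinearEquiv.mul_apply, ht1x, ht2x]⟩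

theorem exists_ES_move [Finite F] [FiniteDimensional F V] {Q : QuadraticForm F V}
    (hQ : (polarBilin Q).Nondegenerate) (hdim : 12 < finrank F V) {x y : V} (h : Q x = Q y)
    (hx : Q x ≠ 0) : ∃ t ∈ ES Q, t x = y := by
  classical
  by_cases hy : y ∈ Submodule.span F {x}
  · obtain ⟨c, rfl⟩ := Submodule.mem_span_singleton.1 hy
    have hc : ({x} : Finset V).card ≤ 1 := by simp
    obtain ⟨e, f, he, hf, hQe, hQf, hef⟩ := exists_hyp hQ {x} (by omega)
    rw [mem_orth] at he hf
    have hxe : polar Q x e = 0 := he x (by simp)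
    have hxf : polar Q x f = 0 := hf x (by simp)
    have hQy : Q (e + Q x • f) = Q x := by rw [Q_add_smul, hQe, hQf, hef]; ring
    have hnot : ∀ d : F, e + Q x • f ∉ Submodule.span F {d • x} := by
      intro d hmem
      obtain ⟨c', hc'⟩ := Submodule.mem_span_singleton.1 hmem
      have h1 : polar Q (e + Q x • f) f = 1 := by
        rw [polar_add_left, polar_smul_left, hef, polar_self, hQf]; simp
      rw [← hc', polar_smul_left, polar_smul_left, hxf] at h1
      simp at h1
    obtain ⟨t1, ht1, ht1x⟩ := exists_ES_move_indep hQ hdim hQy.symm hx (by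
      have := hnot 1; rwa [one_smul] at this)
    have hc0 : c ≠ 0 := by
      rintro rfl
      rw [zero_smul, QuadraticMap.map_zero] at h
      exact hx h
    obtain ⟨t2, ht2, ht2x⟩ := exists_ES_move_indep hQ hdim (hQy.trans h) (by rw [hQy]; exact hx) (by
      intro hmem
      obtain ⟨c', hc'⟩ := Submodule.mem_span_singleton.1 hmem
      have hc'0 : c' ≠ 0 := by
        rintro rfl
        rw [zero_smul] at hc'
        have : x = 0 := by
          have := (smul_eq_zero.1 hc'.symm).resolve_left hc0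
          exact this
        apply hx; rw [this]; simp
      apply hnot c
      rw [Submodule.mem_span_singleton]
      exact ⟨c'⁻¹, by rw [← hc', smul_smul, inv_mul_cancel₀ hc'0, one_smul]⟩)
    exact ⟨t2 * t1, mul_mem ht2 ht1, by rw [LinearEquiv.mul_apply, ht1x, ht2x]⟩
  · exact exists_ES_move_indep hQ hdim h hx hy


/-- **Generation**: `Ω` is contained in the group generated by the Eichler transformations. -/
theorem Om_le_ES [Fintype F] [FiniteDimensional F V] {Q : QuadraticForm F V}
    (hQ : (polarBilin Q).Nondegenerate) (hdim : 12 < finrank F V) : Om Q ≤ ES Q := by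
  let K : Subgroup ↥(OQ Q) := (ES Q).comap (OQ Q).subtype
  have hK : K.Normal := by
    refine ⟨fun t ht g => ?_⟩
    change ((g * t * g⁻¹ : ↥(OQ Q)) : V ≃ₗ[F] V) ∈ ES Q
    have : ((g * t * g⁻¹ : ↥(OQ Q)) : V ≃ₗ[F] V) = (g : V ≃ₗ[F] V) * t * (g : V ≃ₗ[F] V)⁻¹ := rfl
    rw [this]
    exact ES_conj g.2 ht
  have hX : Subgroup.closure {g : ↥(OQ Q) | ∃ v, Q v ≠ 0 ∧ g = reflO Q v} = ⊤ := by
    rw [eq_top_iff]
    intro g _
    obtain ⟨l, hl, rfl⟩ := exists_prod_reflO hQ (Or.inr (by omega)) g
    apply Subgroup.list_prod_mem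
    intro x hx
    obtain ⟨v, hv, rfl⟩ := List.mem_map.1 hx
    exact Subgroup.subset_closure ⟨v, hl v hv, rfl⟩
  have hle : commutator ↥(OQ Q) ≤ K := by
    refine commutator_le_of_generators _ hX K ?_
    rintro _ ⟨v, hv, rfl⟩ _ ⟨w, hw, rfl⟩
    rw [commutatorElement_def]
    change refl Q v * refl Q w * (refl Q v)⁻¹ * (refl Q w)⁻¹ ∈ ES Q
    have e1 : refl Q v * refl Q w * (refl Q v)⁻¹ * (refl Q w)⁻¹
        = refl Q v * (refl Q w * refl Q v * (refl Q w)⁻¹) := by
      rw [refl_inv Q v]
      group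
    rw [e1, conj_refl (refl_mem Q w)]
    obtain ⟨t, ht, htv⟩ := exists_ES_move hQ hdim (x := v) (y := refl Q w v)
      ((mem_OQ.1 (refl_mem Q w) v).symm) hv
    rw [← htv, ← conj_refl (ES_le_OQ Q ht)]
    have e2 : refl Q v * (t * refl Q v * t⁻¹) = (refl Q v * t * (refl Q v)⁻¹) * t⁻¹ := by
      rw [refl_inv Q v]; group
    rw [e2]
    exact mul_mem (ES_conj (refl_mem Q v) ht) (inv_mem ht)
  rintro _ ⟨g, hg, rfl⟩
  exact hle hg

/-- singular vectors all of whose Eichler transformations lie in `K` -/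
def UU (Q : QuadraticForm F V) (K : Subgroup (V ≃ₗ[F] V)) : Set V :=
  {u | Q u = 0 ∧ ∀ (v : V) (hu : Q u = 0) (huv : polar Q u v = 0), eichler Q u v hu huv ∈ K}

lemma UU_map {Q : QuadraticForm F V} {K : Subgroup (V ≃ₗ[F] V)} {u : V} (hu : u ∈ UU Q K)
    {g : V ≃ₗ[F] V} (hg : g ∈ K) (hgO : g ∈ OQ Q) : g u ∈ UU Q K := by
  refine ⟨by rw [mem_OQ.1 hgO]; exact hu.1, fun v h1 h2 => ?_⟩
  have h3 : polar Q u (g⁻¹ v) = 0 := by rw [OQ_polar_inv hgO]; exact h2
  have := conj_eichler hgO u (g⁻¹ v) hu.1 h3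
  have e : eichler Q (g u) v h1 h2 = g * eichler Q u (g⁻¹ v) hu.1 h3 * g⁻¹ := by
    rw [this]
    congr 1
    exact (OQ_inv_apply v).symm
  rw [e]
  exact K.mul_mem (K.mul_mem hg (hu.2 _ _ _)) (K.inv_mem hg)

lemma eichler_smul (Q : QuadraticForm F V) (c : F) (u v : V) (h1 : Q (c • u) = 0)
    (h2 : polar Q (c • u) v = 0) (h3 : Q u = 0) (h4 : polar Q u (c • v) = 0) :
    eichler Q (c • u) v h1 h2 = eichler Q u (c • v) h3 h4 := by
  ext x
  simp only [eichler_apply, polar_smul_left, polar_smul_right, QuadraticMap.map_smul, smul_eq_mul]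
  module

lemma UU_smul {Q : QuadraticForm F V} {K : Subgroup (V ≃ₗ[F] V)} {u : V} (hu : u ∈ UU Q K) (c : F) :
    c • u ∈ UU Q K := by
  refine ⟨by rw [QuadraticMap.map_smul, hu.1]; simp, fun v h1 h2 => ?_⟩
  have h4 : polar Q u (c • v) = 0 := by
    rw [polar_smul_right]; rw [polar_smul_left] at h2; exact h2
  rw [eichler_smul Q c u v h1 h2 hu.1 h4]
  exact hu.2 _ _ _

lemma UU_of_ne {Q : QuadraticForm F V} {K : Subgroup (V ≃ₗ[F] V)} {u u' x : V} (hu : u ∈ UU Q K)
    (hu' : u' ∈ UU Q K) (huu' : polar Q u u' ≠ 0) (hx : Q x = 0) (hxu : polar Q u x ≠ 0) :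
    x ∈ UU Q K := by
  set l : F := polar Q u x / polar Q u u' with hl
  set u'' : V := l • u' with hu''
  have h1 : u'' ∈ UU Q K := UU_smul hu' l
  have hc : polar Q u u'' = polar Q u x := by
    rw [hu'', polar_smul_right, smul_eq_mul, hl, div_mul_cancel₀ _ huu']
  set c := polar Q u x with hcdef
  set v : V := c⁻¹ • (u'' - x) with hv
  have huv : polar Q u v = 0 := by
    rw [hv, polar_smul_right, polar_sub_right, hc, ← hcdef, sub_self, smul_zero]
  have hQv : Q v = - (c⁻¹ * c⁻¹ * polar Q u'' x) := by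
    have := Q_add_smul Q u'' x (-1)
    simp only [neg_smul, one_smul, ← sub_eq_add_neg] at this
    rw [hv, QuadraticMap.map_smul, this, h1.1, hx, smul_eq_mul]; ring
  have hvu'' : polar Q v u'' = - (c⁻¹ * polar Q u'' x) := by
    rw [hv, polar_smul_left, polar_sub_left, polar_self, h1.1, polar_comm Q x u'', smul_eq_mul]
    simp
  have key : eichler Q u v hu.1 huv u'' = x := by
    rw [eichler_apply, hc, hQv, hvu'', hv, smul_smul, mul_inv_cancel₀ hxu, one_smul]
    have : c⁻¹ * c⁻¹ * polar Q u'' x * c = c⁻¹ * polar Q u'' x := by field_simp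
    rw [neg_mul, this]
    module
  rw [← key]
  exact UU_map h1 (hu.2 _ _ _) (eichler_mem Q _ _ _ _)

theorem UU_all [FiniteDimensional F V] {Q : QuadraticForm F V} (hQ : (polarBilin Q).Nondegenerate)
    {K : Subgroup (V ≃ₗ[F] V)} {u u' : V} (hu : u ∈ UU Q K)
    (hu' : u' ∈ UU Q K) (huu' : polar Q u u' ≠ 0) (y : V) (hy : Q y = 0) : y ∈ UU Q K := by
  by_cases hy0 : y = 0
  · have := UU_smul hu 0
    rwa [zero_smul, ← hy0] at this
  by_cases hyu : polar Q u y = 0
  · have hu0 : u ≠ 0 := by
      rintro rfl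
      simp at huu'
    obtain ⟨z1, hz1⟩ := polar_nondeg_exists hQ hu0
    obtain ⟨z2, hz2⟩ := polar_nondeg_exists hQ hy0
    obtain ⟨z, -, hzu, hzy⟩ := Cfsg.Agent.Lib.Helper94.exists_both_ne_zero (⊤ : Submodule F V)
      ((polarBilin Q).flip u) ((polarBilin Q).flip y)
      ⟨z1, trivial, by change polar Q z1 u ≠ 0; rw [hz1]; exact one_ne_zero⟩
      ⟨z2, trivial, by change polar Q z2 y ≠ 0; rw [hz2]; exact one_ne_zero⟩
    change polar Q z u ≠ 0 at hzu
    change polar Q z y ≠ 0 at hzy
    set x : V := z + (-(Q z / polar Q z u)) • u with hx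
    have hQx : Q x = 0 := by
      rw [hx, Q_add_smul, hu.1]; field_simp; ring
    have hux : polar Q u x ≠ 0 := by
      rw [hx, polar_add_right, polar_smul_right, polar_self, hu.1, polar_comm Q u z]
      simpa using hzu
    have hxy : polar Q x y ≠ 0 := by
      rw [hx, polar_add_left, polar_smul_left, hyu]
      simpa using hzy
    have hxU := UU_of_ne hu hu' huu' hQx hux
    exact UU_of_ne hxU hu (by rw [polar_comm]; exact hux) hy hxy
  · exact UU_of_ne hu hu' huu' hy hyu

/-- a subgroup whose set `UU` contains two non-orthogonal vectors contains `Ω` -/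
theorem Om_le_of_UU [Fintype F] [FiniteDimensional F V] {Q : QuadraticForm F V}
    (hQ : (polarBilin Q).Nondegenerate) (hdim : 12 < finrank F V)
    {K : Subgroup (V ≃ₗ[F] V)} {u u' : V} (hu : u ∈ UU Q K)
    (hu' : u' ∈ UU Q K) (huu' : polar Q u u' ≠ 0) : Om Q ≤ K := by
  refine (Om_le_ES hQ hdim).trans ?_
  unfold ES
  rw [Subgroup.closure_le]
  rintro _ ⟨a, b, ha, hab, rfl⟩
  exact (UU_all hQ hu hu' huu' a ha).2 b ha hab

end Cfsg.Agent.Lib.Helper13.O
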