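import Mathlib
import Cfsg.Agent.Lib.Helper13.OrthBasic
import Cfsg.Agent.Lib.Helper44.MaxSing
import Cfsg.Agent.Lib.Helper44.MinusGeom

set_option autoImplicit false
set_option linter.unusedSimpArgs false

namespace Cfsg.Agent.Lib.Helper13.O

open QuadraticMap Module
open Cfsg.Agent.Lib.Helper44

variable {F V : Type*} [Field F] [AddCommGroup V] [Module F V]

local notation "perp" => LinearMap.BilinForm.orthogonal

lemma mem_perp {Q : QuadraticForm F V} {W : Submodule F V} {z : V} :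
    z ∈ perp (polarBilin Q) W ↔ ∀ w ∈ W, polar Q w z = 0 :=
  LinearMap.BilinForm.mem_orthogonal_iff

lemma sing_sub_UU [Fintype F] [FiniteDimensional F V] {Q : QuadraticForm F V}
    (hQ : (polarBilin Q).Nondegenerate) (hdim : 4 < finrank F V) {W : Submodule F V}
    (hW : ∀ w ∈ W, Q w = 0) {G : Subgroup (V ≃ₗ[F] V)}
    (hG : ∀ φ ∈ Om Q, (∀ w ∈ W, φ w ∈ W) → φ ∈ G) {u : V} (hu : u ∈ W) : u ∈ UU Q G := by
  refine ⟨hW u hu, fun v h1 h2 => hG _ (eichler_mem_Om hQ hdim u v h1 h2) ?_⟩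
  intro w hw
  rw [eichler_apply, polar_eq_zero_of_sing hW hu hw]
  simp only [zero_smul, sub_zero, mul_zero]
  exact W.add_mem hw (W.smul_mem _ hu)

theorem par_ne [Fintype F] [FiniteDimensional F V] {Q : QuadraticForm F V}
    (hQ : (polarBilin Q).Nondegenerate) (hdim : 4 < finrank F V) {W : Submodule F V}
    (hW : ∀ w ∈ W, Q w = 0) (hW0 : W ≠ ⊥) : ∃ φ ∈ Om Q, ¬ ∀ w ∈ W, φ w ∈ W := by
  classical
  obtain ⟨w, hw, hw0⟩ := Submodule.exists_mem_ne_zero_of_ne_bot hW0
  obtain ⟨f, hf, hwf⟩ := exists_hyp_partner hQ hw0 (hW w hw)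
  have hc : ({w, f} : Finset V).card ≤ 2 := Finset.card_le_two
  obtain ⟨v, hv, hQv⟩ := exists_ns hQ {w, f} (by omega)
  rw [mem_orth] at hv
  have h1 : polar Q w v = 0 := hv w (by simp)
  have h2 : polar Q f v = 0 := hv f (by simp)
  refine ⟨eichler Q f v hf h2, eichler_mem_Om hQ hdim _ _ _ _, fun h => ?_⟩
  have h3 := polar_eq_zero_of_sing hW hw (h w hw)
  rw [eichler_apply] at h3
  simp only [polar_add_right, polar_sub_right, polar_smul_right, polar_self, hW w hw, h1, hwf,
    polar_comm Q v w, polar_comm Q f w, smul_eq_mul] at h3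
  apply hQv
  simpa using h3

theorem par_core [Fintype F] [FiniteDimensional F V] {Q : QuadraticForm F V}
    (hQ : (polarBilin Q).Nondegenerate) (hdim : 12 < finrank F V) {W : Submodule F V}
    (hW : ∀ w ∈ W, Q w = 0)
    (hk : ∀ W' : Submodule F V, (∀ w ∈ W', Q w = 0) → finrank F W' = finrank F W + 1 →
      2 * finrank F W' ≠ finrank F V)
    (G : Subgroup (V ≃ₗ[F] V)) (hG : ∀ φ ∈ Om Q, (∀ w ∈ W, φ w ∈ W) → φ ∈ G) (hGO : G ≤ Om Q)
    (φ0 : V ≃ₗ[F] V) (hφ0 : φ0 ∈ G) (hns : ¬ ∀ w ∈ W, φ0 w ∈ W) : Om Q ≤ G := by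
  push Not at hns
  obtain ⟨w, hw, hy⟩ := hns
  have hWU : ∀ u ∈ W, u ∈ UU Q G := fun u hu => sing_sub_UU hQ (by omega) hW hG hu
  have hyU : φ0 w ∈ UU Q G := UU_map (hWU w hw) hφ0 (Om_le_OQ Q (hGO hφ0))
  set y := φ0 w with hydef
  by_cases hc : ∃ u ∈ W, polar Q u y ≠ 0
  · obtain ⟨u, hu, huy⟩ := hc
    exact Om_le_of_UU hQ hdim (hWU u hu) hyU huy
  push Not at hc
  have hQy : Q y = 0 := hyU.1
  obtain ⟨z, hz, hzy⟩ : ∃ z ∈ perp (polarBilin Q) W, polar Q z y ≠ 0 := by
    by_contra hcon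
    push Not at hcon
    apply hy
    rw [← LinearMap.BilinForm.orthogonal_orthogonal hQ (polarBilin_isRefl Q) W, mem_perp]
    intro z hz
    exact hcon z hz
  rw [mem_perp] at hz
  set u : V := z + (-(Q z / polar Q z y)) • y with hu
  have hQu : Q u = 0 := by
    rw [hu, Q_add_smul, hQy]; field_simp; ring
  have huy : polar Q u y ≠ 0 := by
    rw [hu, polar_add_left, polar_smul_left, polar_self, hQy]
    simpa using hzy
  have huW : ∀ x ∈ W, polar Q x u = 0 := by
    intro x hx
    rw [hu, polar_add_right, polar_smul_right, hz x hx, hc x hx]; simp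
  -- dimension count
  have hW'sing : ∀ x ∈ W ⊔ Submodule.span F {y}, Q x = 0 := by
    intro x hx
    obtain ⟨a, ha, b, hb, rfl⟩ := Submodule.mem_sup.1 hx
    obtain ⟨c, rfl⟩ := Submodule.mem_span_singleton.1 hb
    rw [Q_add_smul, hW a ha, hQy, hc a ha]; simp
  have hW'dim : finrank F ↥(W ⊔ Submodule.span F {y}) = finrank F W + 1 :=
    Submodule.finrank_sup_span_singleton hy
  have hle : 2 * (finrank F W + 1) ≤ finrank F V := by
    by_contra hcon
    obtain ⟨x, hx, hQx⟩ := exists_nonsingular_of_finrank hQ (W ⊔ Submodule.span F {y}) (by omega)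
    exact hQx (hW'sing x hx)
  have hlt : 2 * (finrank F W + 1) < finrank F V := by
    have := hk _ hW'sing hW'dim
    omega
  have hX : finrank F V ≤ finrank F ↥(perp (polarBilin Q) (W ⊔ Submodule.span F {u})) + (finrank F W + 1) := by
    rw [LinearMap.BilinForm.finrank_orthogonal hQ]
    have h1 := Submodule.finrank_add_le_finrank_add_finrank W (Submodule.span F {u})
    have h2 : finrank F (Submodule.span F {u}) ≤ 1 := by
      have := finrank_span_le_card (R := F) ({u} : Set V)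
      simpa using this
    omega
  obtain ⟨v, hv, hQv⟩ := exists_nonsingular_of_finrank hQ
    (perp (polarBilin Q) (W ⊔ Submodule.span F {u})) (by omega)
  rw [mem_perp] at hv
  have huv : polar Q u v = 0 := hv u (Submodule.mem_sup_right (Submodule.mem_span_singleton_self u))
  have hvW : ∀ x ∈ W, polar Q x v = 0 := fun x hx => hv x (Submodule.mem_sup_left hx)
  have hE : eichler Q u v hQu huv ∈ G := by
    refine hG _ (eichler_mem_Om hQ (by omega) _ _ _ _) ?_
    intro x hx
    rw [eichler_apply, polar_comm Q v x, polar_comm Q u x, hvW x hx, huW x hx]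
    simpa using hx
  have hEy := UU_map hyU hE (eichler_mem Q _ _ _ _)
  refine Om_le_of_UU hQ hdim hEy hyU ?_
  rw [eichler_apply]
  simp only [polar_add_left, polar_sub_left, polar_smul_left, polar_self, hQy, smul_eq_mul]
  have : polar Q v y * polar Q u y - polar Q u y * polar Q v y - Q v * polar Q u y * polar Q u y
      = - (Q v * polar Q u y * polar Q u y) := by ring
  simp only [nsmul_zero, zero_add, this, neg_ne_zero]
  exact mul_ne_zero (mul_ne_zero hQv huy) huy

end Cfsg.Agent.Lib.Helper13.O
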