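import Mathlib
import Cfsg.Agent.Lib.Helper13.OrthPar
import Cfsg.Agent.Lib.Helper44.Isotropy

set_option autoImplicit false
set_option linter.unusedSimpArgs false
set_option linter.unusedSectionVars false

namespace Cfsg.Agent.Lib.Helper13.O

open QuadraticMap Module
open Cfsg.Agent.Lib.Helper44

variable {F V : Type*} [Field F] [AddCommGroup V] [Module F V]

lemma eichler_congr (Q : QuadraticForm F V) {c c' v v' : V} (hcc : c = c') (hvv : v = v')
    (hc : Q c = 0) (h : polar Q c v = 0) (hc' : Q c' = 0) (h' : polar Q c' v' = 0) :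
    eichler Q c v hc h = eichler Q c' v' hc' h' := by
  subst hcc; subst hvv; rfl

lemma eichler_zero (Q : QuadraticForm F V) (c : V) (hc : Q c = 0) (h : polar Q c 0 = 0) :
    eichler Q c 0 hc h = 1 := by
  ext x; simp [eichler_apply]

lemma eichler_neg (Q : QuadraticForm F V) (c v : V) (hc : Q c = 0) (h : polar Q c v = 0)
    (h' : polar Q c (-v) = 0) : eichler Q c (-v) hc h' = (eichler Q c v hc h)⁻¹ := by
  rw [eq_inv_iff_mul_eq_one, eichler_mul,
    eichler_congr Q rfl (neg_add_cancel v) hc _ hc (by simp), eichler_zero]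

/-- the vectors `v` with `E(c,v) ∈ G` -/
def AE (Q : QuadraticForm F V) (G : Subgroup (V ≃ₗ[F] V)) (c : V) (hc : Q c = 0) : AddSubgroup V where
  carrier := {v | ∃ h : polar Q c v = 0, eichler Q c v hc h ∈ G}
  zero_mem' := ⟨by simp, by rw [eichler_zero]; exact G.one_mem⟩
  add_mem' := by
    rintro a b ⟨ha, ha'⟩ ⟨hb, hb'⟩
    refine ⟨by rw [polar_add_right, ha, hb, add_zero], ?_⟩
    rw [← eichler_mul Q c a b hc ha hb]
    exact G.mul_mem ha' hb'
  neg_mem' := by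
    rintro a ⟨ha, ha'⟩
    refine ⟨by rw [polar_neg_right, ha, neg_zero], ?_⟩
    rw [eichler_neg Q c a hc ha]
    exact G.inv_mem ha'

section AE

variable {Q : QuadraticForm F V} {G : Subgroup (V ≃ₗ[F] V)} {c v : V} {hc : Q c = 0}

lemma mem_AE : v ∈ AE Q G c hc ↔ ∃ h : polar Q c v = 0, eichler Q c v hc h ∈ G := Iff.rfl

lemma AE_map {g : V ≃ₗ[F] V} (hg : g ∈ G) (hgO : g ∈ OQ Q) (hv : v ∈ AE Q G c hc)
    (hc' : Q (g c) = 0) : g v ∈ AE Q G (g c) hc' := by
  obtain ⟨h, hE⟩ := hv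
  refine ⟨by rw [OQ_polar hgO]; exact h, ?_⟩
  rw [← conj_eichler hgO c v hc h]
  exact G.mul_mem (G.mul_mem hg hE) (G.inv_mem hg)

lemma AE_fix {g : V ≃ₗ[F] V} (hg : g ∈ G) (hgO : g ∈ OQ Q) (hgc : g c = c)
    (hv : v ∈ AE Q G c hc) : g v ∈ AE Q G c hc := by
  obtain ⟨h, hE⟩ := AE_map hg hgO hv (by rw [hgc]; exact hc)
  have h' : polar Q c (g v) = 0 := by rw [hgc] at h; exact h
  refine ⟨h', ?_⟩
  rw [eichler_congr Q hgc.symm rfl hc h' _ h]
  exact hE

lemma AE_smul {ν : F} (hc' : Q (ν • c) = 0) (hv : v ∈ AE Q G (ν • c) hc') :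
    ν • v ∈ AE Q G c hc := by
  obtain ⟨h, hE⟩ := hv
  have h4 : polar Q c (ν • v) = 0 := by
    rw [polar_smul_right]; rw [polar_smul_left] at h; exact h
  refine ⟨h4, ?_⟩
  rw [← eichler_smul Q ν c v hc' h hc h4]
  exact hE

lemma mem_UU_of_AE (hc : Q c = 0) (h : ∀ v, polar Q c v = 0 → v ∈ AE Q G c hc) : c ∈ UU Q G :=
  ⟨hc, fun v _ hv => (h v hv).2⟩

end AE

lemma finrank_inf_orth [FiniteDimensional F V] {Q : QuadraticForm F V}
    (hQ : (polarBilin Q).Nondegenerate) (W : Submodule F V) (s : Finset V) :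
    finrank F W ≤ finrank F ↥(W ⊓ orth Q s) + s.card := by
  have h1 := Submodule.finrank_sup_add_finrank_inf_eq W (orth Q s)
  have h2 := finrank_orth hQ s
  have h3 : finrank F ↥(W ⊔ orth Q s) ≤ finrank F V := Submodule.finrank_le _
  omega

lemma exists_sing_inf [Fintype F] [FiniteDimensional F V] {Q : QuadraticForm F V}
    (hQ : (polarBilin Q).Nondegenerate) (W : Submodule F V) (s : Finset V)
    (h : s.card + 3 ≤ finrank F W) :
    ∃ c ∈ W, (∀ x ∈ s, polar Q x c = 0) ∧ c ≠ 0 ∧ Q c = 0 := by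
  have h1 := finrank_inf_orth hQ W s
  obtain ⟨c, hc, hc0, hQc⟩ := exists_singular_of_finrank Q (W ⊓ orth Q s) (by omega)
  exact ⟨c, hc.1, mem_orth.1 hc.2, hc0, hQc⟩

/-- a subspace containing a hyperbolic pair is additively generated by its singular vectors -/
lemma span_sing {Q : QuadraticForm F V} {W : Submodule F V} {e f : V} (he : e ∈ W) (hf : f ∈ W)
    (hQe : Q e = 0) (hQf : Q f = 0) (hef : polar Q e f = 1) (X : AddSubgroup V)
    (hX : ∀ u ∈ W, Q u = 0 → u ∈ X) : ∀ x ∈ W, x ∈ X := by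
  intro x hx
  have hfe : polar Q f e = 1 := by rw [polar_comm]; exact hef
  have hee : polar Q e e = 0 := by rw [polar_self, hQe]; simp
  have hff : polar Q f f = 0 := by rw [polar_self, hQf]; simp
  set w : V := x - polar Q x f • e - polar Q x e • f with hw
  have hwW : w ∈ W := W.sub_mem (W.sub_mem hx (W.smul_mem _ he)) (W.smul_mem _ hf)
  have hwe : polar Q w e = 0 := by
    rw [hw, polar_sub_left, polar_sub_left, polar_smul_left, polar_smul_left, hee, hfe]; simp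
  have hwf : polar Q w f = 0 := by
    rw [hw, polar_sub_left, polar_sub_left, polar_smul_left, polar_smul_left, hef, hff]; simp
  have h1 : f + w + (-Q w) • e ∈ X := by
    apply hX _ (W.add_mem (W.add_mem hf hwW) (W.smul_mem _ he))
    rw [Q_add_smul, hQe, polar_add_left, hfe, hwe, QuadraticMap.map_add (⇑Q), hQf, polar_comm Q f w,
      hwf]
    ring
  have h2 : ∀ a : F, a • e ∈ X := fun a =>
    hX _ (W.smul_mem _ he) (by rw [QuadraticMap.map_smul, hQe]; simp)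
  have h3 : ∀ a : F, a • f ∈ X := fun a =>
    hX _ (W.smul_mem _ hf) (by rw [QuadraticMap.map_smul, hQf]; simp)
  have e1 : x = (f + w + (-Q w) • e) + (Q w + polar Q x f) • e + (polar Q x e - 1) • f := by
    rw [hw]; module
  rw [e1]
  exact X.add_mem (X.add_mem h1 (h2 _)) (h3 _)

/-- an orthogonal decomposition `V = W₁ ⊥ W₂` -/
structure OD (Q : QuadraticForm F V) (W₁ W₂ : Submodule F V) : Prop where
  compl : IsCompl W₁ W₂
  orth : ∀ x ∈ W₁, ∀ y ∈ W₂, polar Q x y = 0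

namespace OD

variable {Q : QuadraticForm F V} {W₁ W₂ : Submodule F V}

lemma symm (h : OD Q W₁ W₂) : OD Q W₂ W₁ :=
  ⟨h.compl.symm, fun x hx y hy => by rw [polar_comm]; exact h.orth y hy x hx⟩

lemma decomp (h : OD Q W₁ W₂) (z : V) : ∃ a ∈ W₁, ∃ b ∈ W₂, a + b = z :=
  Submodule.mem_sup.1 (by rw [h.compl.sup_eq_top]; trivial)

lemma finrank_add [FiniteDimensional F V] (h : OD Q W₁ W₂) :
    finrank F W₁ + finrank F W₂ = finrank F V :=
  Submodule.finrank_add_eq_of_isCompl h.compl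

lemma nd (h : OD Q W₁ W₂) (hQ : (polarBilin Q).Nondegenerate) {x : V} (hx : x ∈ W₁) (hx0 : x ≠ 0) :
    ∃ z ∈ W₁, polar Q z x = 1 := by
  obtain ⟨z, hz⟩ := polar_nondeg_exists hQ hx0
  obtain ⟨a, ha, b, hb, rfl⟩ := h.decomp z
  refine ⟨a, ha, ?_⟩
  rw [polar_add_left, polar_comm Q b x, h.orth x hx b hb, add_zero] at hz
  exact hz

lemma partner (h : OD Q W₁ W₂) (hQ : (polarBilin Q).Nondegenerate) {c : V} (hc : c ∈ W₁)
    (hc0 : c ≠ 0) (hQc : Q c = 0) : ∃ f ∈ W₁, Q f = 0 ∧ polar Q c f = 1 := by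
  obtain ⟨z, hz, hzc⟩ := h.nd hQ hc hc0
  refine ⟨z + (-Q z) • c, W₁.add_mem hz (W₁.smul_mem _ hc), ?_, ?_⟩
  · rw [Q_add_smul, hQc, hzc]; ring
  · rw [polar_add_right, polar_smul_right, polar_self, hQc, polar_comm, hzc]; simp

lemma mem_of_perp (h : OD Q W₁ W₂) (hQ : (polarBilin Q).Nondegenerate) {x : V}
    (hx : ∀ y ∈ W₂, polar Q x y = 0) : x ∈ W₁ := by
  obtain ⟨a, ha, b, hb, rfl⟩ := h.decomp x
  by_cases hb0 : b = 0
  · rw [hb0, add_zero]; exact ha
  · exfalso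
    obtain ⟨z, hz, hzb⟩ := h.symm.nd hQ hb hb0
    have := hx z hz
    rw [polar_add_left, h.orth a ha z hz, zero_add, polar_comm, hzb] at this
    exact one_ne_zero this

lemma stab_symm [FiniteDimensional F V] (h : OD Q W₁ W₂) (hQ : (polarBilin Q).Nondegenerate)
    {φ : V ≃ₗ[F] V} (hφ : φ ∈ OQ Q) (hs : ∀ w ∈ W₁, φ w ∈ W₁) : ∀ w ∈ W₂, φ w ∈ W₂ := by
  intro w hw
  apply h.symm.mem_of_perp hQ
  intro y hy
  have hmap := map_eq_of_forall_mem φ W₁ hs
  rw [← hmap] at hy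
  obtain ⟨y', hy', rfl⟩ := hy
  change polar Q (φ w) (φ y') = 0
  rw [OQ_polar hφ, polar_comm]
  exact h.orth y' hy' w hw

lemma exists_not_perp [FiniteDimensional F V] (h : OD Q W₁ W₂) (hQ : (polarBilin Q).Nondegenerate)
    {y b : V} (hb : b ∉ W₂ ⊔ Submodule.span F {y}) :
    ∃ d ∈ W₁, polar Q y d = 0 ∧ polar Q b d ≠ 0 := by
  obtain ⟨y₁, hy₁, y₂, hy₂, rfl⟩ := h.decomp y
  obtain ⟨b₁, hb₁, b₂, hb₂, rfl⟩ := h.decomp b
  have hnot : b₁ ∉ Submodule.span F {y₁} := by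
    intro hmem
    obtain ⟨l, hl⟩ := Submodule.mem_span_singleton.1 hmem
    apply hb
    have e : b₁ + b₂ = (b₂ - l • y₂) + l • (y₁ + y₂) := by rw [← hl]; module
    rw [e]
    exact Submodule.add_mem _ (Submodule.mem_sup_left (W₂.sub_mem hb₂ (W₂.smul_mem _ hy₂)))
      (Submodule.mem_sup_right (Submodule.smul_mem _ _ (Submodule.mem_span_singleton_self _)))
  obtain ⟨w, hw1, hw2⟩ := exists_perp_polar_eq_one hQ hnot
  obtain ⟨d, hd, d₂, hd₂, rfl⟩ := h.decomp w
  rw [polar_add_right, h.orth y₁ hy₁ d₂ hd₂, add_zero] at hw1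
  rw [polar_add_left, polar_comm Q d₂ b₁, h.orth b₁ hb₁ d₂ hd₂, add_zero] at hw2
  refine ⟨d, hd, ?_, ?_⟩
  · rw [polar_add_left, hw1, polar_comm Q y₂ d, h.orth d hd y₂ hy₂, add_zero]
  · rw [polar_add_left, polar_comm Q b₁ d, hw2, polar_comm Q b₂ d, h.orth d hd b₂ hb₂, add_zero]
    exact one_ne_zero

lemma hyp2 [Fintype F] [FiniteDimensional F V] (h : OD Q W₁ W₂) (hQ : (polarBilin Q).Nondegenerate)
    {c c' : V} (hc : c ∈ W₁) (hc' : c' ∈ W₁) (hQc : Q c = 0) (hQc' : Q c' = 0)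
    (hcc' : polar Q c c' = 1) (h5 : 5 ≤ finrank F W₁) :
    ∃ e ∈ W₁, ∃ f ∈ W₁, Q e = 0 ∧ Q f = 0 ∧ polar Q e f = 1 ∧ polar Q c e = 0 ∧ polar Q c' e = 0 ∧
      polar Q c f = 0 ∧ polar Q c' f = 0 := by
  classical
  have hcard : ({c, c'} : Finset V).card ≤ 2 := Finset.card_le_two
  obtain ⟨e, he, hes, he0, hQe⟩ := exists_sing_inf hQ W₁ {c, c'} (by omega)
  have hce : polar Q c e = 0 := hes c (by simp)
  have hc'e : polar Q c' e = 0 := hes c' (by simp)
  have hc'c : polar Q c' c = 1 := by rw [polar_comm]; exact hcc'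
  have hcc : polar Q c c = 0 := by rw [polar_self, hQc]; simp
  have hc'c'' : polar Q c' c' = 0 := by rw [polar_self, hQc']; simp
  obtain ⟨z, hz, hze⟩ := h.nd hQ he he0
  set z' : V := z - polar Q c' z • c - polar Q c z • c' with hz'
  have hz'W : z' ∈ W₁ := W₁.sub_mem (W₁.sub_mem hz (W₁.smul_mem _ hc)) (W₁.smul_mem _ hc')
  have h1 : polar Q c z' = 0 := by
    rw [hz', polar_sub_right, polar_sub_right, polar_smul_right, polar_smul_right, hcc, hcc']; simp
  have h2 : polar Q c' z' = 0 := by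
    rw [hz', polar_sub_right, polar_sub_right, polar_smul_right, polar_smul_right, hc'c, hc'c'']; simp
  have h3 : polar Q z' e = 1 := by
    rw [hz', polar_sub_left, polar_sub_left, polar_smul_left, polar_smul_left, hce, hc'e, hze]; simp
  refine ⟨e, he, z' + (-Q z') • e, W₁.add_mem hz'W (W₁.smul_mem _ he), hQe, ?_, ?_, hce, hc'e, ?_, ?_⟩
  · rw [Q_add_smul, hQe, h3]; ring
  · rw [polar_add_right, polar_smul_right, polar_self, hQe, polar_comm, h3]; simp
  · rw [polar_add_right, polar_smul_right, h1, hce]; simp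
  · rw [polar_add_right, polar_smul_right, h2, hc'e]; simp

end OD

end Cfsg.Agent.Lib.Helper13.O
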